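import Cfsg.Agent.H284.EP.TCrit

/-!
# Extremely primitive groups: a subgroup of `A` centralised by `A'` (helper855, S3499-III)

If `1 ≠ X ≤ A` and `[X, A'] = 1` then `W = C_A(A')` is (T1) elementary abelian, contains `A'`, and `W ∩ A^x = 1`.
-/

set_option autoImplicit false
set_option linter.unusedSectionVars false

namespace Cfsg.Agent.H855.EP3

open Subgroup Cfsg.Agent.H284
open scoped commutatorElement

variable {Q : Type*} [Group Q] {A : Subgroup Q} {Γ : Subgroup (MulAut Q)}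

/-- `C_A(A')` -/
def WW (A : Subgroup Q) : Subgroup Q := A ⊓ Subgroup.centralizer ((⁅A, A⁆ : Subgroup Q) : Set Q)

theorem mem_WW {A : Subgroup Q} {w : Q} : w ∈ WW A ↔ w ∈ A ∧ ∀ c ∈ ⁅A, A⁆, c * w = w * c := by
  rw [WW, mem_inf, mem_centralizer_iff]
  rfl

theorem WW_nilp (A : Subgroup Q) : Group.IsNilpotent (WW A) := by
  rw [Subgroup.isNilpotent_iff_lowerCentralSeries]
  refine ⟨2, ?_⟩
  rw [eq_bot_iff]
  show ⁅⁅WW A, WW A⁆, WW A⁆ ≤ ⊥
  have hA : WW A ≤ A := inf_le_left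
  rw [Subgroup.commutator_le]
  intro a ha b hb
  have h1 : a ∈ ⁅A, A⁆ := Subgroup.commutator_mono hA hA ha
  rw [mem_bot, commutatorElement_eq_one_iff_mul_comm]
  exact (mem_WW.1 hb).2 _ h1

variable (h : EPT A Γ)

include h

theorem center_inf : A ⊓ Subgroup.center Q = ⊥ := by
  obtain ⟨x, hx⟩ := h.exists_notMem
  refine h.F1 x hx _ inf_le_left ?_ ?_
  · intro σ hσ k hk
    refine mem_inf.2 ⟨(h.inv σ hσ k).2 (mem_inf.1 hk).1, ?_⟩
    rw [Subgroup.mem_center_iff]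
    intro g
    have h1 := Subgroup.mem_center_iff.1 (mem_inf.1 hk).2 (σ⁻¹ g)
    have h2 := congrArg σ h1
    rw [map_mul, map_mul, MulAut.apply_inv_self] at h2
    exact h2
  · intro k hk
    rw [mem_cj]
    have h1 := Subgroup.mem_center_iff.1 (mem_inf.1 hk).2 x
    rw [mul_assoc, ← h1, ← mul_assoc, inv_mul_cancel, one_mul]
    exact (mem_inf.1 hk).1

theorem comm_inv {σ : MulAut Q} (hσ : σ ∈ Γ) {c : Q} (hc : c ∈ ⁅A, A⁆) : σ c ∈ ⁅A, A⁆ := by
  have h1 : σ c ∈ (⁅A, A⁆ : Subgroup Q).map σ.toMonoidHom := ⟨c, hc, rfl⟩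
  rw [Subgroup.map_commutator] at h1
  have h2 : A.map σ.toMonoidHom ≤ A := by
    rintro _ ⟨a, ha, rfl⟩
    exact (h.inv σ hσ a).2 ha
  exact Subgroup.commutator_mono h2 h2 h1

theorem WW_inv {σ : MulAut Q} (hσ : σ ∈ Γ) {k : Q} (hk : k ∈ WW A) : σ k ∈ WW A := by
  rw [mem_WW] at hk ⊢
  refine ⟨(h.inv σ hσ k).2 hk.1, fun c hc => ?_⟩
  have h1 := hk.2 _ (comm_inv h (Γ.inv_mem hσ) hc)
  have h2 := congrArg σ h1
  rw [map_mul, map_mul, MulAut.apply_inv_self] at h2
  exact h2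

/-- **T1 for `W = C_A(A') ≠ 1`** -/
theorem WW_spec [Finite Q] (hne : WW A ≠ ⊥) :
    (∀ a ∈ WW A, ∀ b ∈ WW A, a * b = b * a) ∧ (∃ s : ℕ, s.Prime ∧ ∀ a ∈ WW A, a ^ s = 1) ∧ ⁅A, A⁆ ≤ WW A ∧
      (∀ x, x ∉ A → WW A ⊓ cj x A = ⊥ ∧ Nat.card (WW A) * Nat.card (A ⊓ cj x A : Subgroup Q) = Nat.card A) := by
  obtain ⟨h1, h2, h3, h4, _⟩ := h.nilp (WW A) inf_le_left (fun σ hσ k hk => WW_inv h hσ hk) (WW_nilp A) hne
  refine ⟨h1, h2, ?_, h4⟩
  intro c hc
  have hcA : c ∈ A := Subgroup.commutator_le_self A hc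
  obtain ⟨a, ha, e⟩ := h3 (MulAut.conj c) ((h.conj c).2 hcA) (fun k hk => by
    rw [MulAut.conj_apply, (mem_WW.1 hk).2 c hc, mul_inv_cancel_right])
  have h5 : a⁻¹ * c ∈ A ⊓ Subgroup.center Q := by
    refine mem_inf.2 ⟨A.mul_mem (A.inv_mem (mem_WW.1 ha).1) hcA, ?_⟩
    rw [Subgroup.mem_center_iff]
    intro g
    have h6 := congrArg (fun τ : MulAut Q => τ g) e
    simp only [MulAut.conj_apply] at h6
    have h7 : c * g = a * g * a⁻¹ * c := by rw [← h6]; group
    calc g * (a⁻¹ * c) = a⁻¹ * (a * g * a⁻¹ * c) := by group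
      _ = a⁻¹ * c * g := by rw [← h7]; group
  rw [center_inf h, mem_bot, inv_mul_eq_one] at h5
  rw [← h5]
  exact ha

/-- `A'` is abelian as soon as some `1 ≠ x ∈ A` is centralised by it -/
theorem comm_abelian [Finite Q] {X : Subgroup Q} (hXA : X ≤ A) (hX : X ≠ ⊥)
    (hc : ∀ x ∈ X, ∀ c ∈ ⁅A, A⁆, c * x = x * c) : ∀ a ∈ ⁅A, A⁆, ∀ b ∈ ⁅A, A⁆, a * b = b * a := by
  have hne : WW A ≠ ⊥ := by
    intro e
    apply hX
    rw [eq_bot_iff, ← e]
    exact fun x hx => mem_WW.2 ⟨hXA hx, hc x hx⟩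
  obtain ⟨h1, -, h2, -⟩ := WW_spec h hne
  exact fun a ha b hb => h1 a (h2 ha) b (h2 hb)

/-- a perfect group has no homomorphism `≠ 1` to `A` in that case -/
theorem perfect_trivial [Finite Q] {X : Subgroup Q} (hXA : X ≤ A) (hX : X ≠ ⊥)
    (hc : ∀ x ∈ X, ∀ c ∈ ⁅A, A⁆, c * x = x * c) {P : Type*} [Group P] (hP : commutator P = ⊤) (f : P →* Q)
    (hf : ∀ p, f p ∈ A) (p : P) : f p = 1 := by
  have h1 := comm_abelian h hXA hX hc
  have h2 : ∀ p : P, f p ∈ ⁅A, A⁆ := by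
    intro p
    have h3 : p ∈ commutator P := by rw [hP]; exact mem_top _
    have h4 : commutator P ≤ (⁅A, A⁆ : Subgroup Q).comap f := by
      rw [commutator_def, Subgroup.commutator_le]
      intro a _ b _
      rw [mem_comap, map_commutatorElement]
      exact Subgroup.commutator_mem_commutator (hf a) (hf b)
    exact h4 h3
  have h3 : p ∈ commutator P := by rw [hP]; exact mem_top _
  have h4 : commutator P ≤ f.ker := by
    rw [commutator_def, Subgroup.commutator_le]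
    intro a _ b _
    rw [MonoidHom.mem_ker, map_commutatorElement, commutatorElement_eq_one_iff_mul_comm]
    exact h1 _ (h2 a) _ (h2 b)
  exact h4 h3

/-- `|A : X|` divides the prime `r`: `X = C_A(A')` and everything has known order. -/
theorem frob [Finite Q] {X : Subgroup Q} (hXA : X ≤ A) (hX : X ≠ ⊥)
    (hc : ∀ x ∈ X, ∀ c ∈ ⁅A, A⁆, c * x = x * c) {r : ℕ} (hr : r.Prime) (hi : X.relIndex A ∣ r) (hcyc : IsCyclic X) :
    (∃ s : ℕ, s.Prime ∧ Nat.card X = s) ∧ Nat.card A = r * Nat.card X ∧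
      (∀ x, x ∉ A → X ⊓ cj x A = ⊥ ∧ Nat.card (A ⊓ cj x A : Subgroup Q) = r) ∧
      (EPT.M0set A).ncard ≤ Nat.card X ∧ A.index ≤ Nat.card X ^ 2 := by
  have hXW : X ≤ WW A := fun x hx => mem_WW.2 ⟨hXA hx, hc x hx⟩
  have hWA : WW A ≤ A := inf_le_left
  have hne : WW A ≠ ⊥ := by
    intro e
    apply hX
    rw [eq_bot_iff, ← e]
    exact hXW
  obtain ⟨h1, ⟨s, hs, h2⟩, h3, h4⟩ := WW_spec h hne
  -- `W ≠ A`
  have hWne : WW A ≠ A := by
    intro e
    obtain ⟨x, hx⟩ := h.exists_notMem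
    have h5 := (h4 x hx).1
    rw [e] at h5
    exact h.M0 x hx h5
  have h5 : X.relIndex (WW A) * (WW A).relIndex A = X.relIndex A := Subgroup.relIndex_mul_relIndex _ _ _ hXW hWA
  have h6 : (WW A).relIndex A ≠ 1 := by
    intro e
    rw [Subgroup.relIndex_eq_one] at e
    exact hWne (le_antisymm hWA e)
  have h7 : (WW A).relIndex A = r := by
    have h8 : (WW A).relIndex A ∣ r := (Dvd.intro_left _ h5).trans hi
    exact ((Nat.dvd_prime hr).1 h8).resolve_left h6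
  have h8 : X.relIndex (WW A) = 1 := by
    have h9 : X.relIndex (WW A) * r ∣ r := by rw [← h7, h5, h7]; exact hi
    have h10 : X.relIndex (WW A) * r ≤ 1 * r := by rw [one_mul]; exact Nat.le_of_dvd hr.pos h9
    have h11 := Nat.le_of_mul_le_mul_right h10 hr.pos
    have h12 : X.relIndex (WW A) ≠ 0 := by
      intro e
      rw [e, zero_mul] at h9
      exact hr.ne_zero (Nat.eq_zero_of_zero_dvd h9)
    omega
  have hXWe : WW A = X := le_antisymm (Subgroup.relIndex_eq_one.1 h8) hXW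
  rw [hXWe] at h1 h2 h3 h4 h7
  have hcardA : Nat.card A = r * Nat.card X := by
    have h9 := Subgroup.relIndex_mul_relIndex ⊥ X A bot_le hXA
    rw [Subgroup.relIndex_bot_left, Subgroup.relIndex_bot_left, h7] at h9
    rw [← h9, mul_comm]
  have hpos : 0 < Nat.card X := Nat.card_pos
  -- `|X|` is prime
  have hXs : Nat.card X = s := by
    obtain ⟨g, hg⟩ := hcyc.exists_generator
    have h9 : orderOf g = Nat.card X := orderOf_eq_card_of_forall_mem_zpowers hg
    have h10 : orderOf g ∣ s := orderOf_dvd_of_pow_eq_one (Subtype.ext (h2 g g.2))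
    rw [h9] at h10
    rcases (Nat.dvd_prime hs).1 h10 with h11 | h11
    · exfalso
      exact hX (Subgroup.card_eq_one.1 h11)
    · exact h11
  have h9 : ∀ x, x ∉ A → X ⊓ cj x A = ⊥ ∧ Nat.card (A ⊓ cj x A : Subgroup Q) = r := by
    intro x hx
    obtain ⟨h10, h11⟩ := h4 x hx
    refine ⟨h10, ?_⟩
    rw [hcardA, mul_comm r] at h11
    exact Nat.eq_of_mul_eq_mul_left hpos h11
  -- the number of two point stabilisers
  have h10 : (EPT.M0set A).ncard ≤ Nat.card X := by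
    obtain ⟨a, haA, haX⟩ : ∃ a ∈ A, a ∉ X := by
      by_contra hcon
      push Not at hcon
      exact hWne (hXWe.trans (le_antisymm hXA hcon))
    have h11 : EPT.M0set A ⊆ (fun k : X => Subgroup.zpowers ((k : Q) * a)) '' Set.univ := by
      rintro _ ⟨x, hx, rfl⟩
      obtain ⟨k, hk, y, hy, e⟩ := h.fac_A hXA (fun σ hσ k hk => by
        rw [← hXWe] at hk ⊢
        exact WW_inv h hσ hk) hX hx haA
      refine ⟨⟨k⁻¹, X.inv_mem hk⟩, Set.mem_univ _, ?_⟩
      have e2 : k⁻¹ * a = y := by rw [e, inv_mul_cancel_left]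
      show Subgroup.zpowers (k⁻¹ * a) = _
      rw [e2]
      have hy1 : y ≠ 1 := by
        intro hy1
        rw [hy1, mul_one] at e
        exact haX (e ▸ hk)
      have h12 : Subgroup.zpowers y ≤ A ⊓ cj x A := by rwa [Subgroup.zpowers_le]
      apply Subgroup.eq_of_le_of_card_ge h12
      rw [(h9 x hx).2]
      have h13 : Nat.card (Subgroup.zpowers y) ∣ r := by
        rw [← (h9 x hx).2]
        exact Subgroup.card_dvd_of_le h12
      rcases (Nat.dvd_prime hr).1 h13 with h14 | h14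
      · exfalso
        apply hy1
        have h15 := Subgroup.card_eq_one.1 h14
        rwa [Subgroup.zpowers_eq_bot] at h15
      · exact h14.ge
    calc (EPT.M0set A).ncard ≤ ((fun k : X => Subgroup.zpowers ((k : Q) * a)) '' Set.univ).ncard :=
          Set.ncard_le_ncard h11 (Set.toFinite _)
      _ ≤ (Set.univ : Set X).ncard := Set.ncard_image_le (Set.toFinite _)
      _ = Nat.card X := Set.ncard_univ X
  refine ⟨⟨s, hs, hXs⟩, hcardA, h9, h10, ?_⟩
  exact h.index_le.trans (Nat.pow_le_pow_left h10 2)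

end Cfsg.Agent.H855.EP3
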