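import Cfsg.Agent.H907.FieldSub
import Cfsg.Agent.H912.Core4
import Cfsg.Agent.H954.FieldSub
import Cfsg.Agent.LieClassical.SLGen

/-!
# Field subalgebras: commutators of the normaliser, `SL_d(K)` inside the centraliser (helper855, S3499-III)
-/

set_option autoImplicit false
set_option linter.unusedSectionVars false

namespace Cfsg.Agent.H855.EP3

open Cfsg Cfsg.Geo Matrix
open Cfsg.Agent.H907 (KU mem_KU)
open scoped MatrixGroups commutatorElement

section K

variable {ι : Type} [Fintype ι] [DecidableEq ι] {F : Type*} [Field F] {r : ℕ} {K : Subalgebra F (Matrix ι ι F)}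

theorem KU_le (hK : IsFieldSubalgebra r K) [Finite F] : KU hK ≤ subalgebraNormalizer K := by
  intro g hg
  apply H954.FieldSub.mem_normalizer_of
  intro k hk
  exact K.mul_mem (K.mul_mem hg hk) (mem_KU.1 ((KU hK).inv_mem hg))

theorem conj_KU (hK : IsFieldSubalgebra r K) {g u : GL ι F} (hg : g ∈ subalgebraNormalizer K) (hu : u ∈ KU hK) :
    g * u * g⁻¹ ∈ KU hK := by
  rw [mem_KU, Units.val_mul, Units.val_mul]
  exact (hg _).1 hu

theorem conj_conj [Finite F] [Nonempty ι] (hK : IsFieldSubalgebra r K) {g h u : GL ι F}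
    (hg : g ∈ subalgebraNormalizer K) (hh : h ∈ subalgebraNormalizer K) (hu : u ∈ KU hK) :
    g * (h * u * h⁻¹) * g⁻¹ = h * (g * u * g⁻¹) * h⁻¹ := by
  have hN : H912.NormAlg (subalgebraNormalizer K) K := fun _ hh a ha => (hh a).mp ha
  let _ : Field K := (H912.isField_of_fieldSub hK).toField
  have hfin : Finite K := Module.finite_of_finite F
  let σ : K ≃ₐ[F] K := H912.conjSub hN ⟨g, hg⟩
  let τ : K ≃ₐ[F] K := H912.conjSub hN ⟨h, hh⟩
  have hc : σ * τ = τ * σ := by
    obtain ⟨f, hf⟩ := IsCyclic.exists_generator (α := K ≃ₐ[F] K)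
    obtain ⟨a, ha⟩ := hf σ
    obtain ⟨b, hb⟩ := hf τ
    rw [← ha, ← hb]
    exact (Commute.refl f).zpow_zpow a b
  have h1 := congrArg (fun f : K ≃ₐ[F] K => ((f ⟨u, hu⟩ : K) : Matrix ι ι F)) hc
  apply Units.ext
  rw [Units.val_mul, Units.val_mul, Units.val_mul, Units.val_mul, Units.val_mul, Units.val_mul, Units.val_mul,
    Units.val_mul]
  exact h1

theorem comm_KU [Finite F] [Nonempty ι] (hK : IsFieldSubalgebra r K) {g h u : GL ι F}
    (hg : g ∈ subalgebraNormalizer K) (hh : h ∈ subalgebraNormalizer K) (hu : u ∈ KU hK) :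
    ⁅g, h⁆ * u = u * ⁅g, h⁆ := by
  have h1 := conj_KU hK (Subgroup.inv_mem _ hh) hu
  rw [inv_inv] at h1
  have h2 := conj_conj hK hh (Subgroup.inv_mem _ hg) h1
  rw [inv_inv] at h2
  have e1 : h * (h⁻¹ * u * h) * h⁻¹ = u := by group
  rw [e1] at h2
  have h3 : ⁅g, h⁆ * u * ⁅g, h⁆⁻¹ = u := by
    calc ⁅g, h⁆ * u * ⁅g, h⁆⁻¹ = g * (h * (g⁻¹ * (h⁻¹ * u * h) * g) * h⁻¹) * g⁻¹ := by
          rw [commutatorElement_def]; group
      _ = u := by rw [h2]; group
  rw [mul_inv_eq_iff_eq_mul] at h3
  exact h3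

/-- `K* ∩ SL` is not scalar -/
theorem exists_KU [Fintype F] [Nonempty ι] (hK : IsFieldSubalgebra r K) (hr : 2 ≤ r) :
    ∃ u ∈ KU hK, u ∈ specialLinear ι F ∧ u ∉ scalars ι F := by
  classical
  by_contra hcon
  push Not at hcon
  let f : KU hK →* Fˣ := Matrix.GeneralLinearGroup.det.comp (KU hK).subtype
  have h1 : Nat.card f.ker * Nat.card f.range = Nat.card (KU hK) := by
    rw [← Subgroup.index_ker f, Subgroup.card_mul_index]
  have hF : Nat.card Fˣ = Fintype.card F - 1 := by
    rw [Nat.card_eq_fintype_card, Fintype.card_units]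
  have h2 : Nat.card f.range ≤ Fintype.card F - 1 := by
    rw [← hF]
    exact Nat.card_le_card_of_injective _ (Subgroup.subtype_injective f.range)
  have h3 : Nat.card f.ker ≤ Fintype.card F - 1 := by
    have h4 : Nat.card (scalars ι F) ≤ Fintype.card F - 1 := by
      rw [← hF]
      exact Nat.card_le_card_of_surjective _ (MonoidHom.rangeRestrict_surjective _)
    refine le_trans ?_ h4
    let j : f.ker → scalars ι F := fun u => ⟨((u : KU hK) : GL ι F), hcon _ (u : KU hK).2 (by
      have h5 := u.2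
      rw [MonoidHom.mem_ker] at h5
      exact h5)⟩
    refine Nat.card_le_card_of_injective j ?_
    intro a b hab
    exact Subtype.ext (Subtype.ext (congrArg (fun z : scalars ι F => (z : GL ι F)) hab))
  rw [H907.card_KU hK] at h1
  have hq : 2 ≤ Fintype.card F := Fintype.one_lt_card
  have h5 : Fintype.card F ^ r - 1 ≤ (Fintype.card F - 1) * (Fintype.card F - 1) := by
    rw [← h1]
    exact Nat.mul_le_mul h3 h2
  have h6 : Fintype.card F ^ 2 ≤ Fintype.card F ^ r := Nat.pow_le_pow_right (by omega) hr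
  obtain ⟨q, hq'⟩ : ∃ q, Fintype.card F = q + 2 := ⟨Fintype.card F - 2, by omega⟩
  rw [hq'] at h5 h6
  have h7 : (q + 2) ^ 2 = (q + 1) * (q + 1) + 2 * q + 3 := by ring
  have h8 : q + 2 - 1 = q + 1 := by omega
  rw [h8] at h5
  omega

end K

section rho

universe u

variable {ι : Type} [Fintype ι] [DecidableEq ι] {F : Type u} [Field F] {r : ℕ} {K : Subalgebra F (Matrix ι ι F)}

theorem perf {L : Type u} [Field L] [Fintype L] (h4 : 4 ≤ Fintype.card L) {d : ℕ} (hd : 2 ≤ d) :
    commutator (SpecialLinearGroup (Fin d) L) = ⊤ := by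
  rcases hd.lt_or_eq with hd | rfl
  · exact LieClassical.SLGen.commutator_eq_top (by rw [Fintype.card_fin]; exact hd)
  · have : ∃ a : L, a ≠ 0 ∧ a ^ 2 ≠ 1 := by
      classical
      by_contra hcon
      push Not at hcon
      have h1 : (Finset.univ : Finset L) ⊆ {0, 1, -1} := by
        intro a _
        rw [Finset.mem_insert, Finset.mem_insert, Finset.mem_singleton]
        by_cases ha : a = 0
        · exact Or.inl ha
        · right
          have h5 := hcon a ha
          rw [sq] at h5
          exact mul_self_eq_one_iff.1 h5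
      have h2 := Finset.card_le_card h1
      rw [Finset.card_univ] at h2
      have h3 : ({0, 1, -1} : Finset L).card ≤ 3 := Finset.card_le_three
      omega
    obtain ⟨a, ha, ha2⟩ := this
    exact SL2.commutator_eq_top ha ha2

/-- `SL_d(K)` in the centraliser of `K`, `d = n / r ≥ 2` -/
theorem exists_rho [Finite F] [Nonempty ι] (hK : IsFieldSubalgebra r K) (hr : 2 ≤ r) (hlt : r < Fintype.card ι) :
    ∃ (d : ℕ) (L : Type u) (_ : Field L), commutator (SpecialLinearGroup (Fin d) L) = ⊤ ∧
      ∃ ρ : SpecialLinearGroup (Fin d) L →* GL ι F, (∀ T, ρ T ∈ specialLinear ι F) ∧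
        (∀ T, ∀ k ∈ K, (ρ T : Matrix ι ι F) * k = k * (ρ T : Matrix ι ι F)) ∧ ∃ T, ρ T ∉ scalars ι F := by
  classical
  obtain ⟨L, _, _, φ, hφ, hrk⟩ := H954.FieldSub.exists_field hK
  have hfd : Module.Finite F L := Module.finite_of_finrank_pos (by omega)
  have hLfin : Finite L := Module.finite_of_finite F
  have := Fintype.ofFinite L
  have := Fintype.ofFinite F
  let ψ : L →ₐ[F] Module.End F (ι → F) := (Matrix.toLinAlgEquiv' (R := F) (n := ι)).toAlgHom.comp φ
  have h1 := H954.FieldSub.finrank_VS ψ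
  rw [hrk, Module.finrank_fintype_fun_eq_card] at h1
  set d := Module.finrank L (H954.FieldSub.VS ψ) with hd
  have hd2 : 2 ≤ d := by
    by_contra hcon
    have : d ≤ 1 := by omega
    have : r * d ≤ r * 1 := Nat.mul_le_mul_left _ this
    omega
  let B : Module.Basis (Fin d) L (H954.FieldSub.VS ψ) := Module.finBasis L (H954.FieldSub.VS ψ)
  have hcardL : 4 ≤ Fintype.card L := by
    have h2 : Fintype.card L = Fintype.card F ^ r := by
      rw [Module.card_eq_pow_finrank (K := F) (V := L), hrk]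
    have hq : 2 ≤ Fintype.card F := Fintype.one_lt_card
    rw [h2]
    calc 4 = 2 ^ 2 := rfl
      _ ≤ Fintype.card F ^ 2 := Nat.pow_le_pow_left hq 2
      _ ≤ Fintype.card F ^ r := Nat.pow_le_pow_right (by omega) hr
  -- the homomorphism
  let e : SpecialLinearGroup (Fin d) L → ((ι → F) →ₗ[F] (ι → F)) := fun T =>
    ((Matrix.toLin B B T.1).restrictScalars F : H954.FieldSub.VS ψ →ₗ[F] H954.FieldSub.VS ψ)
  have he1 : e 1 = LinearMap.id := by
    show ((Matrix.toLin B B (1 : Matrix (Fin d) (Fin d) L)).restrictScalars F :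
      H954.FieldSub.VS ψ →ₗ[F] H954.FieldSub.VS ψ) = LinearMap.id
    rw [Matrix.toLin_one]
    rfl
  have hem : ∀ S T, e (S * T) = e S ∘ₗ e T := by
    intro S T
    show ((Matrix.toLin B B (S.1 * T.1)).restrictScalars F : H954.FieldSub.VS ψ →ₗ[F] H954.FieldSub.VS ψ) = _
    rw [Matrix.toLin_mul B B B]
    rfl
  have hed : ∀ T, LinearMap.det (e T) = 1 := by
    intro T
    show LinearMap.det ((Matrix.toLin B B T.1).restrictScalars F : H954.FieldSub.VS ψ →ₗ[F] H954.FieldSub.VS ψ) = 1
    rw [LinearMap.det_restrictScalars, LinearMap.det_toLin, T.2, map_one]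
  let ρ0 : SpecialLinearGroup (Fin d) L →* Matrix ι ι F :=
    { toFun := fun T => LinearMap.toMatrix' (e T)
      map_one' := by rw [he1, LinearMap.toMatrix'_id]
      map_mul' := fun S T => by rw [hem, LinearMap.toMatrix'_comp] }
  let ρ : SpecialLinearGroup (Fin d) L →* GL ι F := ρ0.toHomUnits
  have hρ : ∀ T, (ρ T : Matrix ι ι F) = LinearMap.toMatrix' (e T) := fun T => rfl
  have hlin : ∀ T, Matrix.toLin' (ρ T : Matrix ι ι F) = e T := by
    intro T
    rw [hρ, Matrix.toLin'_toMatrix']
  refine ⟨d, L, inferInstance, perf hcardL hd2, ρ, ?_, ?_, ?_⟩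
  · intro T
    show Matrix.GeneralLinearGroup.det (ρ T) = 1
    apply Units.ext
    show (ρ T : Matrix ι ι F).det = 1
    rw [← LinearMap.det_toLin', hlin, hed]
  · intro T k hk
    rw [← hφ] at hk
    obtain ⟨a, rfl⟩ := hk
    apply (Matrix.toLin' (R := F)).injective
    rw [Matrix.toLin'_mul, Matrix.toLin'_mul, hlin]
    apply LinearMap.ext
    intro v
    exact (Matrix.toLin B B T.1).map_smul a v
  · let i0 : Fin d := ⟨0, by omega⟩
    let i1 : Fin d := ⟨1, by omega⟩
    have h01 : i0 ≠ i1 := by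
      intro h
      have := congrArg Fin.val h
      simp [i0, i1] at this
    refine ⟨⟨Matrix.transvection i0 i1 1, Matrix.det_transvection_of_ne _ _ h01 1⟩, ?_⟩
    intro hs
    obtain ⟨c, hc⟩ := (mem_scalars_iff _).1 hs
    have h2 := (hlin _).symm.trans (congrArg (Matrix.toLin' (R := F)) hc)
    have h3 := congrArg (fun f : (ι → F) →ₗ[F] (ι → F) => f (B i1)) h2
    have h4 : e ⟨Matrix.transvection i0 i1 1, Matrix.det_transvection_of_ne _ _ h01 1⟩ (B i1) = B i1 + B i0 := by
      show Matrix.toLin B B (Matrix.transvection i0 i1 1) (B i1) = B i1 + B i0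
      rw [Matrix.toLin_self]
      rw [Finset.sum_eq_add i0 i1 h01]
      · simp [Matrix.transvection, Matrix.single_apply, h01, add_comm]
      · intro j _ hj
        simp [Matrix.transvection, Matrix.single_apply, hj.1, hj.2, hj.1.symm, Matrix.one_apply]
      · intro h; exact absurd (Finset.mem_univ _) h
      · intro h; exact absurd (Finset.mem_univ _) h
    have h5 : Matrix.toLin' ((c : F) • (1 : Matrix ι ι F)) (B i1) = ((c : F) • (B i1 : ι → F)) := by
      rw [map_smul, Matrix.toLin'_one]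
      rfl
    have h6 : (B i1 + B i0 : H954.FieldSub.VS ψ) = (algebraMap F L c) • B i1 := by
      rw [← h4]
      refine h3.trans (h5.trans ?_)
      rw [algebraMap_smul]
    have h7 := congrArg (fun v => B.repr v i0) h6
    have h8 : B.repr (B i1 + B i0) i0 = 1 := by
      rw [map_add, Finsupp.add_apply, B.repr_self, B.repr_self, Finsupp.single_apply, Finsupp.single_apply,
        if_neg h01.symm, if_pos rfl, zero_add]
    have h9 : B.repr ((algebraMap F L c) • B i1) i0 = 0 := by
      rw [map_smul, Finsupp.smul_apply, B.repr_self, Finsupp.single_apply, if_neg h01.symm, smul_zero]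
    exact one_ne_zero (h8.symm.trans (h7.trans h9))

end rho

end Cfsg.Agent.H855.EP3
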