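import Cfsg.Agent.H284.EP.Hat
import Cfsg.Agent.H855.EP3.Abs
import Cfsg.Agent.H855.EP3.Rho

/-!
# Extremely primitive groups: `SL_n(q)`, class C3 (helper855, task 6042 of S3499)
-/

set_option autoImplicit false
set_option linter.unusedSectionVars false

namespace Cfsg.Agent.H855.EP3

open Subgroup Cfsg Cfsg.Geo Matrix Cfsg.Agent.H284 Cfsg.Agent.H419.EP
open Cfsg.Agent.H907 (KU mem_KU)
open scoped MatrixGroups commutatorElement

section gen

variable {Q : Type*} [Group Q] {A : Subgroup Q} {Γ : Subgroup (MulAut Q)}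
  {F : Type*} [Field F] [Fintype F] {n : ℕ} (m : Model Q (specialLinear (Fin n) F))
  {r : ℕ} {K : Subalgebra F (Matrix (Fin n) (Fin n) F)} (hK : IsFieldSubalgebra r K)

/-- the image of `K* ∩ SL` -/
def XX : Subgroup Q := Hat.im m (KU hK ⊓ specialLinear (Fin n) F)

theorem mem_XX {x : Q} : x ∈ XX m hK ↔ ∃ s : specialLinear (Fin n) F, (s : GL (Fin n) F) ∈ KU hK ∧ m.π s = x := by
  constructor
  · rintro ⟨s, hs, e⟩
    exact ⟨s, (mem_inf.1 hs).1, e⟩
  · rintro ⟨s, hs, e⟩
    exact ⟨s, mem_inf.2 ⟨hs, s.2⟩, e⟩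

theorem XX_ne [Nonempty (Fin n)] (hr : 2 ≤ r) : XX m hK ≠ ⊥ := by
  obtain ⟨u, hu, hus, hun⟩ := exists_KU hK hr
  intro e
  have h1 : m.π ⟨u, hus⟩ ∈ XX m hK := (mem_XX m hK).2 ⟨⟨u, hus⟩, hu, rfl⟩
  rw [e, mem_bot, m.ker] at h1
  exact hun h1

theorem XX_comm {x y : Q} (hx : x ∈ XX m hK) (hy : y ∈ XX m hK) : x * y = y * x := by
  obtain ⟨s, hs, rfl⟩ := (mem_XX m hK).1 hx
  obtain ⟨t, ht, rfl⟩ := (mem_XX m hK).1 hy
  rw [← map_mul, ← map_mul]
  congr 1
  apply Subtype.ext
  apply Units.ext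
  exact hK.comm _ hs _ ht

include hK in
theorem hat_eq [Finite Q] (h : EPT A Γ) (hs : IsSimpleGroup Q) [Nonempty (Fin n)] (hr : 2 ≤ r)
    (hA : m.hat A ≤ subalgebraNormalizer K) :
    m.hat A = subalgebraNormalizer K ⊓ specialLinear (Fin n) F := by
  rcases (m.isMaximalIn h.max).2 (subalgebraNormalizer K ⊓ specialLinear (Fin n) F) (le_inf hA (m.hat_le A))
    inf_le_right with e | e
  · exact e.symm
  · exfalso
    have hle : specialLinear (Fin n) F ≤ subalgebraNormalizer K := inf_eq_right.1 e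
    have hnorm : (XX m hK).Normal := by
      refine ⟨fun x hx g => ?_⟩
      obtain ⟨s, hs, rfl⟩ := (mem_XX m hK).1 hx
      obtain ⟨t, rfl⟩ := m.surj g
      refine (mem_XX m hK).2 ⟨t * s * t⁻¹, conj_KU hK (hle t.2) hs, ?_⟩
      rw [map_mul, map_mul, map_inv]
    rcases hnorm.eq_bot_or_eq_top with h1 | h1
    · exact XX_ne m hK hr h1
    · have h2 : A ≤ center Q := by
        intro a _
        rw [mem_center_iff]
        intro g
        exact XX_comm m hK (by rw [h1]; exact mem_top _) (by rw [h1]; exact mem_top _)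
      have h3 := center_inf h
      rw [inf_eq_left.2 h2] at h3
      exact h.ne h3

variable (hA : m.hat A = subalgebraNormalizer K ⊓ specialLinear (Fin n) F)

include hA

theorem XX_le : XX m hK ≤ A := by
  intro x hx
  obtain ⟨s, hs, rfl⟩ := (mem_XX m hK).1 hx
  rw [← m.mem_hat_iff, hA]
  exact mem_inf.2 ⟨KU_le hK hs, s.2⟩

theorem XX_comm_comm [Nonempty (Fin n)] : ∀ x ∈ XX m hK, ∀ c ∈ ⁅A, A⁆, c * x = x * c := by
  intro x hx c hc
  obtain ⟨u, hu, rfl⟩ := (mem_XX m hK).1 hx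
  have h1 : ⁅A, A⁆ ≤ centralizer {m.π u} := by
    rw [commutator_le]
    intro a ha b hb
    obtain ⟨s, rfl⟩ := m.surj a
    obtain ⟨t, rfl⟩ := m.surj b
    rw [← m.mem_hat_iff, hA] at ha hb
    rw [mem_centralizer_singleton_iff, ← map_commutatorElement, ← map_mul, ← map_mul]
    congr 1
    apply Subtype.ext
    exact (comm_KU hK (mem_inf.1 ha).1 (mem_inf.1 hb).1 hu)
  exact mem_centralizer_singleton_iff.1 (h1 hc)

end gen

/-- `r < n` -/
theorem c3_lt {Q : Type*} [Group Q] [Finite Q] (hs : IsSimpleGroup Q) {A : Subgroup Q} {Γ : Subgroup (MulAut Q)}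
    (h : EPT A Γ) {F : Type*} [Field F] [Fintype F] {n : ℕ} (m : Model Q (specialLinear (Fin n) F))
    {r : ℕ} (hr : 2 ≤ r) (hlt : r < n) {K : Subalgebra F (Matrix (Fin n) (Fin n) F)} (hK : IsFieldSubalgebra r K)
    (hA : m.hat A ≤ subalgebraNormalizer K) : False := by
  have hne : Nonempty (Fin n) := ⟨⟨0, by omega⟩⟩
  have hA' := hat_eq m hK h hs hr hA
  obtain ⟨d, L, _, hperf, ρ, h1, h2, T, hT⟩ := exists_rho hK hr (by rw [Fintype.card_fin]; exact hlt)
  let f : SpecialLinearGroup (Fin d) L →* Q := m.π.comp (ρ.codRestrict (specialLinear (Fin n) F) h1)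
  have hf : ∀ p, f p ∈ A := by
    intro p
    show m.π ⟨ρ p, h1 p⟩ ∈ A
    rw [← m.mem_hat_iff, hA']
    refine mem_inf.2 ⟨H954.FieldSub.mem_normalizer_of fun k hk => ?_, h1 p⟩
    show (ρ p : Matrix (Fin n) (Fin n) F) * k * (((ρ p)⁻¹ : GL (Fin n) F) : Matrix (Fin n) (Fin n) F) ∈ K
    rw [h2 p k hk, mul_assoc, ← Units.val_mul, mul_inv_cancel, Units.val_one, mul_one]
    exact hk
  have h3 := perfect_trivial h (XX_le m hK hA') (XX_ne m hK hr) (XX_comm_comm m hK hA') hperf f hf T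
  exact hT ((m.ker ⟨ρ T, h1 T⟩).1 h3)

section full

variable {Q : Type*} [Group Q] [Finite Q] {A : Subgroup Q} {Γ : Subgroup (MulAut Q)}
  {F : Type*} [Field F] [Fintype F] {n : ℕ} (m : Model Q (specialLinear (Fin n) F))
  {K : Subalgebra F (Matrix (Fin n) (Fin n) F)} (hK : IsFieldSubalgebra n K)

theorem scal_le_KU {ι : Type} [Fintype ι] [DecidableEq ι] {F : Type*} [Field F] {r : ℕ}
    {K : Subalgebra F (Matrix ι ι F)} (hK : IsFieldSubalgebra r K) : scalars ι F ≤ KU hK := by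
  intro z hz
  obtain ⟨c, hc⟩ := (mem_scalars_iff z).1 hz
  rw [mem_KU, hc]
  exact K.smul_mem K.one_mem _

theorem mem_KU_of_comm (hn : n.Prime) {g : GL (Fin n) F} (hg : ∀ k ∈ K, (g : Matrix (Fin n) (Fin n) F) * k = k * g) :
    g ∈ KU hK := by
  have hne : Nonempty (Fin n) := ⟨⟨0, hn.pos⟩⟩
  obtain ⟨u, hu, -, hun⟩ := exists_KU hK hn.two_le
  refine H907.mem_of_commute hn (Fintype.card_fin n) K hK.comm ?_ ?_ hg
  · intro x hx h0
    obtain ⟨y, -, hxy⟩ := hK.inv x hx h0
    exact ⟨⟨x, y, hxy, mul_eq_one_comm.1 hxy⟩, rfl⟩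
  · refine ⟨u, hu, ?_⟩
    rintro ⟨c, hc⟩
    apply hun
    rw [mem_scalars_iff]
    have hc0 : c ≠ 0 := by
      rintro rfl
      rw [zero_smul] at hc
      exact u.ne_zero hc
    exact ⟨Units.mk0 c hc0, hc⟩

theorem relIndex_dvd (hn : n.Prime) (hA : m.hat A = subalgebraNormalizer K ⊓ specialLinear (Fin n) F) :
    (XX m hK).relIndex A ∣ n := by
  have hne : Nonempty (Fin n) := ⟨⟨0, hn.pos⟩⟩
  have h1 : m.hat (XX m hK) = KU hK ⊓ specialLinear (Fin n) F :=
    m.hat_map _ inf_le_right (le_inf (inf_le_left.trans (scal_le_KU hK)) inf_le_right)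
  have h2 := Hat.relIndex_hat (A := XX m hK) m (m.hat_le A)
  have h3 : Hat.im m (m.hat A) = A := m.map_hat A
  rw [h3, h1, hA] at h2
  rw [← h2]
  set H := subalgebraNormalizer K ⊓ specialLinear (Fin n) F with hH
  have hN : H912.NormAlg H K := fun _ hh a ha => ((mem_inf.1 hh).1 a).mp ha
  let _ : Field K := (H912.isField_of_fieldSub hK).toField
  have hfin : Finite K := Module.finite_of_finite F
  have hfd : Module.Finite F K := inferInstance
  have hgal : IsGalois F K := inferInstance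
  let θ : H →* (K ≃ₐ[F] K) :=
    { toFun := fun g => H912.conjSub hN g
      map_one' := by
        apply AlgEquiv.ext
        intro x
        apply Subtype.ext
        rw [H912.conjSub_coe]
        simp
      map_mul' := by
        intro a b
        apply AlgEquiv.ext
        intro x
        apply Subtype.ext
        rw [AlgEquiv.mul_apply, H912.conjSub_coe, H912.conjSub_coe, H912.conjSub_coe]
        rw [Subgroup.coe_mul, _root_.mul_inv_rev, Units.val_mul, Units.val_mul]
        simp only [Matrix.mul_assoc] }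
  have h4 : θ.ker = (KU hK ⊓ specialLinear (Fin n) F).subgroupOf H := by
    ext g
    rw [MonoidHom.mem_ker, mem_subgroupOf]
    constructor
    · intro hg
      refine mem_inf.2 ⟨mem_KU_of_comm hK hn fun k hk => ?_, (mem_inf.1 g.2).2⟩
      have h5 := congrArg (fun f : K ≃ₐ[F] K => ((f ⟨k, hk⟩ : K) : Matrix (Fin n) (Fin n) F)) hg
      have h6 : ((g : GL (Fin n) F) : Matrix (Fin n) (Fin n) F) * k *
        (((g : GL (Fin n) F)⁻¹ : GL (Fin n) F) : Matrix (Fin n) (Fin n) F) = k := h5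
      calc ((g : GL (Fin n) F) : Matrix (Fin n) (Fin n) F) * k
          = (((g : GL (Fin n) F) : Matrix (Fin n) (Fin n) F) * k *
            (((g : GL (Fin n) F)⁻¹ : GL (Fin n) F) : Matrix (Fin n) (Fin n) F)) *
              ((g : GL (Fin n) F) : Matrix (Fin n) (Fin n) F) := by
            rw [mul_assoc _ _ ((g : GL (Fin n) F) : Matrix (Fin n) (Fin n) F), ← Units.val_mul, inv_mul_cancel,
              Units.val_one, mul_one]
        _ = k * ((g : GL (Fin n) F) : Matrix (Fin n) (Fin n) F) := by rw [h6]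
    · intro hg
      apply AlgEquiv.ext
      intro x
      apply Subtype.ext
      show ((g : GL (Fin n) F) : Matrix (Fin n) (Fin n) F) * x *
        (((g : GL (Fin n) F)⁻¹ : GL (Fin n) F) : Matrix (Fin n) (Fin n) F) = x
      rw [hK.comm _ (mem_KU.1 (mem_inf.1 hg).1) _ x.2, mul_assoc, ← Units.val_mul, mul_inv_cancel, Units.val_one,
        mul_one]
  rw [Subgroup.relIndex, ← h4, Subgroup.index_ker]
  have h5 : Nat.card (K ≃ₐ[F] K) = n := by
    rw [IsGalois.card_aut_eq_finrank, hK.finrank_eq]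
  have h6 := Subgroup.card_subgroup_dvd_card θ.range
  rwa [h5] at h6

theorem XX_cyclic [Nonempty (Fin n)] : IsCyclic (XX m hK) := by
  have h0 : IsCyclic (KU hK) := H907.isCyclic_KU hK
  have h1 : IsCyclic (KU hK ⊓ specialLinear (Fin n) F : Subgroup (GL (Fin n) F)) :=
    isCyclic_of_injective (Subgroup.inclusion inf_le_left) (Subgroup.inclusion_injective _)
  let j : (KU hK ⊓ specialLinear (Fin n) F : Subgroup (GL (Fin n) F)) →* XX m hK :=
    { toFun := fun u => ⟨m.π ⟨u, (mem_inf.1 u.2).2⟩, (mem_XX m hK).2 ⟨_, (mem_inf.1 u.2).1, rfl⟩⟩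
      map_one' := Subtype.ext (map_one m.π)
      map_mul' := fun a b => Subtype.ext (map_mul m.π ⟨(a : GL (Fin n) F), (mem_inf.1 a.2).2⟩
        ⟨(b : GL (Fin n) F), (mem_inf.1 b.2).2⟩) }
  apply isCyclic_of_surjective j
  rintro ⟨x, hx⟩
  obtain ⟨s, hs, rfl⟩ := (mem_XX m hK).1 hx
  exact ⟨⟨s, mem_inf.2 ⟨hs, s.2⟩⟩, rfl⟩

/-- `|K* ∩ SL|` divides `(q^n - 1) / (q - 1)` -/
theorem card_KU_SL [Nonempty (Fin n)] : Nat.card (KU hK ⊓ specialLinear (Fin n) F : Subgroup (GL (Fin n) F)) ∣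
    (Fintype.card F ^ n - 1) / (Fintype.card F - 1) := by
  have h0 : IsCyclic (KU hK) := H907.isCyclic_KU hK
  have h1 : IsCyclic (KU hK ⊓ specialLinear (Fin n) F : Subgroup (GL (Fin n) F)) :=
    isCyclic_of_injective (Subgroup.inclusion inf_le_left) (Subgroup.inclusion_injective _)
  obtain ⟨g, hg⟩ := h1.exists_generator
  rw [← orderOf_eq_card_of_forall_mem_zpowers hg]
  apply orderOf_dvd_of_pow_eq_one
  apply Subtype.ext
  apply Units.ext
  have h2 : IsFieldSubalgebra (Fintype.card (Fin n)) K := by rw [Fintype.card_fin]; exact hK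
  have h3 := H907.pow_eq_det h2 (mem_KU.1 (mem_inf.1 g.2).1)
  rw [Fintype.card_fin] at h3
  have h4 : (((g : GL (Fin n) F) : Matrix (Fin n) (Fin n) F)).det = 1 := by
    have h5 : Matrix.GeneralLinearGroup.det (g : GL (Fin n) F) = 1 := (mem_inf.1 g.2).2
    exact congrArg Units.val h5
  rw [h4, one_smul] at h3
  rw [Subgroup.coe_pow, Units.val_pow_eq_pow_val, h3]
  rfl

/-- `|X| |Z| = |K* ∩ SL|`, `|Q| |Z| = |SL|` -/
theorem card_XX : Nat.card (m.hat (⊥ : Subgroup Q)) * Nat.card (XX m hK) =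
    Nat.card (KU hK ⊓ specialLinear (Fin n) F : Subgroup (GL (Fin n) F)) := by
  have h1 := Hat.relIndex_hat (A := ⊥) m (C := KU hK ⊓ specialLinear (Fin n) F) inf_le_right
  rw [Subgroup.relIndex_bot_left] at h1
  have h2 : m.hat (⊥ : Subgroup Q) ≤ KU hK ⊓ specialLinear (Fin n) F := by
    intro g hg
    obtain ⟨hgS, h3⟩ := m.mem_hat.1 hg
    rw [mem_bot, m.ker] at h3
    exact mem_inf.2 ⟨scal_le_KU hK h3, hgS⟩
  have h3 := Subgroup.relIndex_mul_relIndex ⊥ (m.hat (⊥ : Subgroup Q)) _ bot_le h2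
  rw [Subgroup.relIndex_bot_left, Subgroup.relIndex_bot_left, h1] at h3
  exact h3

theorem card_Q : Nat.card (m.hat (⊥ : Subgroup Q)) * Nat.card Q = Nat.card (specialLinear (Fin n) F) := by
  have h1 := Hat.index_hat (A := ⊥) m
  rw [Subgroup.index_bot] at h1
  have h3 := Subgroup.relIndex_mul_relIndex ⊥ (m.hat (⊥ : Subgroup Q)) _ bot_le (m.hat_le _)
  rw [Subgroup.relIndex_bot_left, Subgroup.relIndex_bot_left, h1] at h3
  exact h3

theorem card_SL_ge : ∏ i : Fin n, (Fintype.card F ^ n - Fintype.card F ^ (i : ℕ)) ≤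
    Nat.card (specialLinear (Fin n) F) * (Fintype.card F - 1) := by
  classical
  rw [← Matrix.card_GL_field]
  have h1 : Nat.card (specialLinear (Fin n) F) *
      Nat.card (Matrix.GeneralLinearGroup.det : GL (Fin n) F →* Fˣ).range = Nat.card (GL (Fin n) F) := by
    show Nat.card (Matrix.GeneralLinearGroup.det : GL (Fin n) F →* Fˣ).ker * _ = _
    rw [← Subgroup.index_ker, Subgroup.card_mul_index]
  rw [← h1]
  apply Nat.mul_le_mul_left
  have hF : Nat.card Fˣ = Fintype.card F - 1 := by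
    rw [Nat.card_eq_fintype_card, Fintype.card_units]
  rw [← hF]
  exact Nat.card_le_card_of_injective _ (Subgroup.subtype_injective _)

end full

section num

theorem num_big {q n m0 N : ℕ} (hq : 2 ≤ q) (hn : 5 ≤ n) (hm : m0 * (q - 1) = q ^ n - 1)
    (h1 : ∏ i : Fin n, (q ^ n - q ^ (i : ℕ)) ≤ N * (q - 1)) (h2 : N ≤ n * m0 ^ 3) : False := by
  have h3 : (q ^ (n - 1)) ^ n ≤ ∏ i : Fin n, (q ^ n - q ^ (i : ℕ)) := by
    calc (q ^ (n - 1)) ^ n = ∏ _i : Fin n, q ^ (n - 1) := by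
          rw [Finset.prod_const, Finset.card_univ, Fintype.card_fin]
      _ ≤ _ := by
          apply Finset.prod_le_prod' (fun i _ => ?_)
          have h4 : q ^ (i : ℕ) ≤ q ^ (n - 1) := Nat.pow_le_pow_right (by omega) (by omega)
          have h5 : q ^ n = q ^ (n - 1) * q := by
            rw [← pow_succ]; congr 1; omega
          have h6 : q ^ (n - 1) * 2 ≤ q ^ (n - 1) * q := Nat.mul_le_mul_left _ hq
          omega
  have h4 : (q ^ (n - 1)) ^ n ≤ n * m0 ^ 3 * (q - 1) := h3.trans (h1.trans (Nat.mul_le_mul_right _ h2))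
  have h5 : n * m0 ^ 3 * (q - 1) ≤ n * (m0 * (q - 1)) ^ 3 := by
    have h6 : 1 ≤ q - 1 := by omega
    have h7 : 1 ≤ (q - 1) ^ 2 := Nat.one_le_pow _ _ h6
    calc n * m0 ^ 3 * (q - 1) = n * m0 ^ 3 * (q - 1) * 1 := (mul_one _).symm
      _ ≤ n * m0 ^ 3 * (q - 1) * (q - 1) ^ 2 := Nat.mul_le_mul_left _ h7
      _ = n * (m0 * (q - 1)) ^ 3 := by ring
  rw [hm] at h5
  have h6 : (q ^ n - 1) ^ 3 ≤ (q ^ n) ^ 3 := Nat.pow_le_pow_left (Nat.sub_le _ _) 3
  have h7 : (q ^ (n - 1)) ^ n ≤ n * (q ^ n) ^ 3 := (h4.trans h5).trans (Nat.mul_le_mul_left _ h6)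
  have h8 : (q ^ (n - 1)) ^ n = q ^ (n * (n - 4)) * (q ^ n) ^ 3 := by
    rw [← pow_mul, ← pow_mul, ← pow_add]
    congr 1
    obtain ⟨k, rfl⟩ : ∃ k, n = k + 4 := ⟨n - 4, by omega⟩
    have e1 : k + 4 - 1 = k + 3 := by omega
    have e2 : k + 4 - 4 = k := by omega
    rw [e1, e2]; ring
  rw [h8] at h7
  have h9 : 0 < (q ^ n) ^ 3 := by positivity
  have h10 : q ^ (n * (n - 4)) ≤ n := Nat.le_of_mul_le_mul_right h7 h9
  have h11 : 2 ^ n ≤ q ^ (n * (n - 4)) := by
    calc 2 ^ n ≤ q ^ n := Nat.pow_le_pow_left hq n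
      _ ≤ q ^ (n * (n - 4)) := Nat.pow_le_pow_right (by omega) (Nat.le_mul_of_pos_right n (by omega))
  have h12 : n < 2 ^ n := Nat.lt_two_pow_self
  omega

theorem num_three {q m0 N : ℕ} (hq : 2 ≤ q) (hm : m0 * (q - 1) = q ^ 3 - 1)
    (h1 : ∏ i : Fin 3, (q ^ 3 - q ^ (i : ℕ)) ≤ N * (q - 1)) (h2 : N ≤ 3 * m0 ^ 3) : q ≤ 3 := by
  by_contra hcon
  obtain ⟨t, rfl⟩ : ∃ t, q = t + 4 := ⟨q - 4, by omega⟩
  rw [Fin.prod_univ_three] at h1
  have e0 : t + 4 - 1 = t + 3 := by omega
  have e1 : (t + 4) ^ 3 - 1 = (t + 3) * (t ^ 2 + 9 * t + 21) := by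
    have : (t + 4) ^ 3 = (t + 3) * (t ^ 2 + 9 * t + 21) + 1 := by ring
    omega
  have e2 : (t + 4) ^ 3 - (t + 4) ^ 1 = (t + 3) * (t + 4) * (t + 5) := by
    have : (t + 4) ^ 3 = (t + 3) * (t + 4) * (t + 5) + (t + 4) ^ 1 := by ring
    omega
  have e3 : (t + 4) ^ 3 - (t + 4) ^ 2 = (t + 3) * (t + 4) ^ 2 := by
    have : (t + 4) ^ 3 = (t + 3) * (t + 4) ^ 2 + (t + 4) ^ 2 := by ring
    omega
  have hm0 : m0 = t ^ 2 + 9 * t + 21 := by
    rw [e0, e1, mul_comm m0] at hm
    exact Nat.eq_of_mul_eq_mul_left (by omega) hm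
  have h3 : (t + 3) * (t ^ 2 + 9 * t + 21) * ((t + 3) * (t + 4) * (t + 5)) * ((t + 3) * (t + 4) ^ 2) ≤
      3 * (t ^ 2 + 9 * t + 21) ^ 3 * (t + 3) := by
    have h4 := h1.trans (Nat.mul_le_mul_right _ h2)
    rw [e0] at h4
    have e4 : (t + 4) ^ 3 - (t + 4) ^ ((0 : Fin 3) : ℕ) = (t + 3) * (t ^ 2 + 9 * t + 21) := by
      rw [← e1]; rfl
    have e5 : (t + 4) ^ 3 - (t + 4) ^ ((1 : Fin 3) : ℕ) = (t + 3) * (t + 4) * (t + 5) := e2
    have e6 : (t + 4) ^ 3 - (t + 4) ^ ((2 : Fin 3) : ℕ) = (t + 3) * (t + 4) ^ 2 := e3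
    rw [e4, e5, e6, hm0] at h4
    exact h4
  have h5 : 0 < (t ^ 2 + 9 * t + 21) * (t + 3) := by positivity
  have h6 : (t + 3) ^ 2 * (t + 4) ^ 3 * (t + 5) ≤ 3 * (t ^ 2 + 9 * t + 21) ^ 2 := by
    apply Nat.le_of_mul_le_mul_right _ h5
    calc (t + 3) ^ 2 * (t + 4) ^ 3 * (t + 5) * ((t ^ 2 + 9 * t + 21) * (t + 3))
        = (t + 3) * (t ^ 2 + 9 * t + 21) * ((t + 3) * (t + 4) * (t + 5)) * ((t + 3) * (t + 4) ^ 2) := by ring
      _ ≤ _ := h3
      _ = _ := by ring
  nlinarith [Nat.zero_le t, Nat.zero_le (t ^ 2), Nat.zero_le (t ^ 3), Nat.zero_le (t ^ 4), Nat.zero_le (t ^ 5),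
    Nat.zero_le (t ^ 6)]

end num

section full

variable {Q : Type*} [Group Q] [Finite Q] {A : Subgroup Q} {Γ : Subgroup (MulAut Q)}
  {F : Type*} [Field F] [Fintype F] {n : ℕ} (m : Model Q (specialLinear (Fin n) F))
  {K : Subalgebra F (Matrix (Fin n) (Fin n) F)} (hK : IsFieldSubalgebra n K)

include hK in
theorem card_SL_le (h : EPT A Γ) (hn : n.Prime) (hA : m.hat A = subalgebraNormalizer K ⊓ specialLinear (Fin n) F) :
    Nat.card (specialLinear (Fin n) F) ≤ n * ((Fintype.card F ^ n - 1) / (Fintype.card F - 1)) ^ 3 := by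
  have hne : Nonempty (Fin n) := ⟨⟨0, hn.pos⟩⟩
  obtain ⟨-, h1, -, -, h2⟩ := frob h (XX_le m hK hA) (XX_ne m hK hn.two_le) (XX_comm_comm m hK hA) hn
    (relIndex_dvd m hK hn hA) (XX_cyclic m hK)
  set x := Nat.card (XX m hK) with hx
  set z := Nat.card (m.hat (⊥ : Subgroup Q)) with hz
  have hz1 : 1 ≤ z := Nat.card_pos
  have h3 : z * x ∣ (Fintype.card F ^ n - 1) / (Fintype.card F - 1) := by
    rw [hz, hx, card_XX m hK]
    exact card_KU_SL hK
  have hq : 2 ≤ Fintype.card F := Fintype.one_lt_card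
  have hpos : 0 < (Fintype.card F ^ n - 1) / (Fintype.card F - 1) := by
    apply Nat.div_pos
    · have : Fintype.card F ^ 1 ≤ Fintype.card F ^ n := Nat.pow_le_pow_right (by omega) hn.pos
      rw [pow_one] at this
      omega
    · omega
  have h4 : z * x ≤ (Fintype.card F ^ n - 1) / (Fintype.card F - 1) := Nat.le_of_dvd hpos h3
  rw [← card_Q m, ← hz]
  have h5 : Nat.card Q ≤ n * x * x ^ 2 := by
    rw [← A.card_mul_index, h1]
    exact Nat.mul_le_mul_left _ h2
  calc z * Nat.card Q ≤ z * (n * x * x ^ 2) := Nat.mul_le_mul_left _ h5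
    _ ≤ z * (n * x * x ^ 2) * z ^ 2 := Nat.le_mul_of_pos_right _ (by positivity)
    _ = n * (z * x) ^ 3 := by ring
    _ ≤ _ := Nat.mul_le_mul_left _ (Nat.pow_le_pow_left h4 3)

include hK in
/-- `n = r`: only `(3, 2)` and `(3, 3)` -/
theorem c3_full_aux (h : EPT A Γ) (hn : n.Prime) (hn3 : 3 ≤ n)
    (hA : m.hat A = subalgebraNormalizer K ⊓ specialLinear (Fin n) F) : n = 3 ∧ Fintype.card F ≤ 3 := by
  have hq : 2 ≤ Fintype.card F := Fintype.one_lt_card
  have h1 := card_SL_le m hK h hn hA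
  have h2 := card_SL_ge (F := F) (n := n)
  have h3 : (Fintype.card F ^ n - 1) / (Fintype.card F - 1) * (Fintype.card F - 1) = Fintype.card F ^ n - 1 := by
    apply Nat.div_mul_cancel
    have := Nat.sub_dvd_pow_sub_pow (Fintype.card F) 1 n
    rwa [one_pow] at this
  rcases Nat.lt_or_ge n 5 with h5 | h5
  · have h6 : n ≠ 4 := by
      rintro rfl
      exact absurd hn (by decide)
    have h7 : n = 3 := by omega
    subst h7
    exact ⟨rfl, num_three hq h3 h2 h1⟩
  · exact (num_big hq h5 h3 h2 h1).elim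

end full

section cyc

variable {F : Type*} [Field F] [Fintype F] (hF : Fintype.card F = 3)
  {K : Subalgebra F (Matrix (Fin 3) (Fin 3) F)} (hK : IsFieldSubalgebra 3 K)

include hF hK in
theorem cyc {u : GL (Fin 3) F} (hu : u ∈ subalgebraNormalizer K) (huK : u ∉ KU hK) (hu3 : u ^ 3 = 1) :
    ∃ v : Fin 3 → F, ∀ B : Matrix (Fin 3) (Fin 3) F, B * (u : Matrix (Fin 3) (Fin 3) F) = u * B → B *ᵥ v = 0 →
      B = 0 := by
  classical
  have hp : Fact (Nat.Prime 3) := ⟨Nat.prime_three⟩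
  have hchar : CharP F 3 := charP_of_card_eq_prime hF
  have h3 : (3 : F) = 0 := by exact_mod_cast CharP.cast_eq_zero F 3
  set U : Matrix (Fin 3) (Fin 3) F := (u : Matrix (Fin 3) (Fin 3) F) with hU
  set N : Matrix (Fin 3) (Fin 3) F := U - 1 with hN
  have hU3 : U ^ 3 = 1 := by
    rw [hU, ← Units.val_pow_eq_pow_val, hu3, Units.val_one]
  have hN3 : N ^ 3 = 0 := by
    rw [hN, sub_pow_char_of_commute _ (Commute.one_right U), hU3, one_pow, sub_self]
  -- `N ^ 2 ≠ 0`
  have hN2 : N ^ 2 ≠ 0 := by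
    intro h0
    obtain ⟨k, hk, hne⟩ : ∃ k ∈ K, U * k ≠ k * U := by
      by_contra hcon
      push Not at hcon
      exact huK (mem_KU_of_comm hK Nat.prime_three hcon)
    set k' := U * k * ((u⁻¹ : GL (Fin 3) F) : Matrix (Fin 3) (Fin 3) F) with hk'
    set k'' := U * k' * ((u⁻¹ : GL (Fin 3) F) : Matrix (Fin 3) (Fin 3) F) with hk''
    have huu : ((u⁻¹ : GL (Fin 3) F) : Matrix (Fin 3) (Fin 3) F) * U = 1 := by
      rw [hU, ← Units.val_mul, inv_mul_cancel, Units.val_one]
    have hk'K : k' ∈ K := (hu k).1 hk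
    have hk''K : k'' ∈ K := (hu k').1 hk'K
    have e1 : k' * U = U * k := by rw [hk', mul_assoc, huu, mul_one]
    have e2 : k'' * U = U * k' := by rw [hk'', mul_assoc, huu, mul_one]
    have e3 : U * U = U + U - 1 := by
      have h5 : N ^ 2 = U * U - (U + U - 1) := by rw [hN, sq]; noncomm_ring
      rw [h0] at h5
      exact (sub_eq_zero.1 h5.symm)
    have e4 : U * U * k = k'' * (U * U) := by
      rw [mul_assoc, ← e1, ← mul_assoc, ← e2, mul_assoc]
    rw [e3] at e4
    have e5 : U + U = - U := by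
      have h6 : U + U + U = (3 : F) • U := by
        rw [show (3 : F) = 1 + 1 + 1 by norm_num, add_smul, add_smul, one_smul]
      rw [h3, zero_smul] at h6
      exact eq_neg_of_add_eq_zero_left h6
    have e6 : (k'' - k') * U = k - k'' := by
      have h7 : (U + U - 1) * k = k' * (U + U) - k := by
        rw [sub_mul, add_mul, ← e1, mul_add, one_mul]
      have h8 : k'' * (U + U - 1) = k'' * (U + U) - k'' := by rw [mul_sub, mul_one]
      rw [h7, h8, e5] at e4
      have h9 : (k'' - k') * U = (k' * -U - k) - (k'' * -U - k'') + (k - k'') := by noncomm_ring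
      rw [h9, e4]
      noncomm_ring
    have hne2 : k'' - k' ≠ 0 := by
      intro h7
      rw [sub_eq_zero] at h7
      apply hne
      have h8 : k' = k := by
        have h9 : U * k' = U * k := by rw [← e2, h7, e1]
        have h10 := congrArg (fun M => ((u⁻¹ : GL (Fin 3) F) : Matrix (Fin 3) (Fin 3) F) * M) h9
        simp only [← mul_assoc, huu, one_mul] at h10
        exact h10
      rw [← e1, h8]
    obtain ⟨y, hy, hyk⟩ := hK.inv _ (K.sub_mem hk''K hk'K) hne2
    apply huK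
    rw [mem_KU, ← hU]
    have h7 : U = y * (k - k'') := by
      rw [← e6, ← mul_assoc, hK.comm y hy _ (K.sub_mem hk''K hk'K), hyk, one_mul]
    rw [h7]
    exact K.mul_mem hy (K.sub_mem hk hk''K)
  obtain ⟨v, hv⟩ : ∃ v, N ^ 2 *ᵥ v ≠ 0 := by
    by_contra hcon
    push Not at hcon
    apply hN2
    apply Matrix.ext_of_mulVec_single
    intro i
    rw [hcon, Matrix.zero_mulVec]
  refine ⟨v, fun B hB hBv => ?_⟩
  have hBN : B * N = N * B := by rw [hN, mul_sub, sub_mul, hB, mul_one, one_mul]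
  have h4 : B *ᵥ (N *ᵥ v) = 0 := by rw [Matrix.mulVec_mulVec, hBN, ← Matrix.mulVec_mulVec, hBv, Matrix.mulVec_zero]
  have h5 : B *ᵥ (N ^ 2 *ᵥ v) = 0 := by
    rw [Matrix.mulVec_mulVec, sq, ← mul_assoc, hBN, mul_assoc, hBN, ← mul_assoc, ← Matrix.mulVec_mulVec, hBv,
      Matrix.mulVec_zero]
  have e0 : N ^ 2 *ᵥ (N *ᵥ v) = 0 := by rw [Matrix.mulVec_mulVec, ← pow_succ, hN3, Matrix.zero_mulVec]
  have e1 : N *ᵥ (N ^ 2 *ᵥ v) = 0 := by rw [Matrix.mulVec_mulVec, ← pow_succ', hN3, Matrix.zero_mulVec]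
  have e2 : N *ᵥ (N *ᵥ v) = N ^ 2 *ᵥ v := by rw [Matrix.mulVec_mulVec, sq]
  have hli : LinearIndependent F ![v, N *ᵥ v, N ^ 2 *ᵥ v] := by
    rw [Fintype.linearIndependent_iff]
    intro g hg
    rw [Fin.sum_univ_three] at hg
    have hg' : g 0 • v + g 1 • (N *ᵥ v) + g 2 • (N ^ 2 *ᵥ v) = 0 := hg
    have h6 := congrArg (fun w => N ^ 2 *ᵥ w) hg'
    simp only [Matrix.mulVec_add, Matrix.mulVec_smul, Matrix.mulVec_zero] at h6
    have e3 : N ^ 2 *ᵥ (N ^ 2 *ᵥ v) = 0 := by
      rw [Matrix.mulVec_mulVec, ← pow_add, show 2 + 2 = 3 + 1 from rfl, pow_succ, hN3, zero_mul, Matrix.zero_mulVec]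
    rw [e0, e3, smul_zero, smul_zero, add_zero, add_zero] at h6
    have g0 : g 0 = 0 := (smul_eq_zero.1 h6).resolve_right hv
    rw [g0, zero_smul, zero_add] at hg'
    have h7 := congrArg (fun w => N *ᵥ w) hg'
    simp only [Matrix.mulVec_add, Matrix.mulVec_smul, Matrix.mulVec_zero] at h7
    rw [e1, e2, smul_zero, add_zero] at h7
    have g1 : g 1 = 0 := (smul_eq_zero.1 h7).resolve_right hv
    rw [g1, zero_smul, zero_add] at hg'
    have g2 : g 2 = 0 := (smul_eq_zero.1 hg').resolve_right hv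
    intro i
    fin_cases i
    · exact g0
    · exact g1
    · exact g2
  let b := basisOfLinearIndependentOfCardEqFinrank hli (by
    rw [Fintype.card_fin, Module.finrank_fintype_fun_eq_card, Fintype.card_fin])
  have h6 : Matrix.toLin' B = 0 := by
    apply b.ext
    intro i
    rw [coe_basisOfLinearIndependentOfCardEqFinrank, Matrix.toLin'_apply, LinearMap.zero_apply]
    fin_cases i
    · exact hBv
    · exact h4
    · exact h5
  exact (Matrix.toLin' (R := F)).injective (h6.trans (map_zero _).symm)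

include hF hK in
/-- the centraliser in `SL_3(3)` of `u` has at most 13 elements -/
theorem cent_le {u : GL (Fin 3) F} (hu : u ∈ subalgebraNormalizer K) (huK : u ∉ KU hK) (hu3 : u ^ 3 = 1) :
    Nat.card (Subgroup.centralizer {u} ⊓ specialLinear (Fin 3) F : Subgroup (GL (Fin 3) F)) ≤ 13 := by
  classical
  obtain ⟨v, hv⟩ := cyc hF hK hu huK hu3
  have hv0 : v ≠ 0 := by
    rintro rfl
    have := hv 1 (by rw [one_mul, mul_one]) (Matrix.mulVec_zero _)
    exact one_ne_zero this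
  set CG : Subgroup (GL (Fin 3) F) := Subgroup.centralizer {u} with hCG
  have h1 : Nat.card CG ≤ 26 := by
    let j : CG → {w : Fin 3 → F // w ≠ 0} := fun g => ⟨((g : GL (Fin 3) F) : Matrix (Fin 3) (Fin 3) F) *ᵥ v, by
      intro h2
      have h3 := congrArg (fun w => (((g : GL (Fin 3) F)⁻¹ : GL (Fin 3) F) : Matrix (Fin 3) (Fin 3) F) *ᵥ w) h2
      simp only [Matrix.mulVec_mulVec, Matrix.mulVec_zero] at h3
      rw [← Units.val_mul, inv_mul_cancel, Units.val_one, Matrix.one_mulVec] at h3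
      exact hv0 h3⟩
    have hj : Function.Injective j := by
      intro g g' hgg
      apply Subtype.ext
      apply Units.ext
      rw [← sub_eq_zero]
      apply hv
      · have h2 := congrArg Units.val (mem_centralizer_singleton_iff.1 g.2)
        have h3 := congrArg Units.val (mem_centralizer_singleton_iff.1 g'.2)
        rw [Units.val_mul, Units.val_mul] at h2 h3
        rw [sub_mul, mul_sub, h2, h3]
      · have h4 := congrArg Subtype.val hgg
        rw [Matrix.sub_mulVec]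
        exact sub_eq_zero.2 h4
    have h2 := Nat.card_le_card_of_injective j hj
    have h3 : Nat.card {w : Fin 3 → F // w ≠ 0} = 26 := by
      rw [Nat.card_eq_fintype_card, Fintype.card_subtype_compl, Fintype.card_subtype_eq, Fintype.card_fun,
        Fintype.card_fin, hF]
      norm_num
    omega
  have h2 : CG ⊓ specialLinear (Fin 3) F ≤ CG := inf_le_left
  have h3 := Subgroup.relIndex_mul_relIndex ⊥ _ _ bot_le h2
  rw [Subgroup.relIndex_bot_left, Subgroup.relIndex_bot_left] at h3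
  have h4 : (CG ⊓ specialLinear (Fin 3) F).relIndex CG ≠ 1 := by
    intro h5
    rw [Subgroup.relIndex_eq_one] at h5
    have h6 : (-1 : GL (Fin 3) F) ∈ CG := by
      rw [hCG, mem_centralizer_singleton_iff, neg_one_mul, mul_neg_one]
    have h7 := (mem_inf.1 (h5 h6)).2
    have h8 : Matrix.GeneralLinearGroup.det (-1 : GL (Fin 3) F) = 1 := h7
    have h9 := congrArg Units.val h8
    have h10 : ((Matrix.GeneralLinearGroup.det (-1 : GL (Fin 3) F) : Fˣ) : F) = -1 := by
      show (-1 : Matrix (Fin 3) (Fin 3) F).det = -1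
      rw [Matrix.det_neg, Matrix.det_one, Fintype.card_fin]
      norm_num
    rw [h10, Units.val_one] at h9
    have hp : Fact (Nat.Prime 3) := ⟨Nat.prime_three⟩
    have hchar : CharP F 3 := charP_of_card_eq_prime hF
    have h3' : (3 : F) = 0 := by exact_mod_cast CharP.cast_eq_zero F 3
    have h11 : (1 : F) = 0 := by
      have h12 : (3 : F) = 1 + 2 := by norm_num
      have h13 : (2 : F) = 0 := by
        have : (2 : F) = 1 - (-1) := by norm_num
        rw [this, h9, sub_self]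
      rw [h13, add_zero] at h12
      rw [← h12, h3']
    exact one_ne_zero h11
  have h5 : (CG ⊓ specialLinear (Fin 3) F).relIndex CG ≠ 0 := by
    intro h6
    rw [h6, mul_zero] at h3
    exact (Nat.card_pos (α := CG)).ne h3
  have h6 : 2 ≤ (CG ⊓ specialLinear (Fin 3) F).relIndex CG := by omega
  have h7 : Nat.card (CG ⊓ specialLinear (Fin 3) F : Subgroup (GL (Fin 3) F)) * 2 ≤ 26 :=
    (Nat.mul_le_mul_left _ h6).trans (h3.le.trans h1)
  omega

end cyc

/-- `L_3(3)` -/
theorem three_three {Q : Type*} [Group Q] [Finite Q] {A : Subgroup Q} {Γ : Subgroup (MulAut Q)} (h : EPT A Γ)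
    {F : Type*} [Field F] [Fintype F] (hF : Fintype.card F = 3) (m : Model Q (specialLinear (Fin 3) F))
    {K : Subalgebra F (Matrix (Fin 3) (Fin 3) F)} (hK : IsFieldSubalgebra 3 K)
    (hA : m.hat A = subalgebraNormalizer K ⊓ specialLinear (Fin 3) F) : False := by
  classical
  have hn := Nat.prime_three
  obtain ⟨⟨s, hs, hXs⟩, h1, h2, h3, -⟩ := frob h (XX_le m hK hA) (XX_ne m hK hn.two_le) (XX_comm_comm m hK hA) hn
    (relIndex_dvd m hK hn hA) (XX_cyclic m hK)
  have h4 := card_KU_SL (n := 3) hK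
  rw [hF, ← card_XX m hK, hXs] at h4
  have e13 : (3 ^ 3 - 1) / (3 - 1) = 13 := rfl
  rw [e13] at h4
  have hs13 : s = 13 := ((Nat.dvd_prime (by norm_num : (13 : ℕ).Prime)).1 (Dvd.dvd.trans (Dvd.intro_left _ rfl) h4)).resolve_left
    hs.one_lt.ne'
  subst hs13
  have hz : Nat.card (m.hat (⊥ : Subgroup Q)) = 1 := by
    have h5 := Nat.le_of_dvd (by norm_num) h4
    have h6 : 0 < Nat.card (m.hat (⊥ : Subgroup Q)) := Nat.card_pos
    omega
  have hinj : ∀ t : specialLinear (Fin 3) F, m.π t = 1 → t = 1 := by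
    intro t ht
    have h5 : (t : GL (Fin 3) F) ∈ m.hat (⊥ : Subgroup Q) := (m.mem_hat_iff t).2 ht
    rw [Subgroup.card_eq_one.1 hz, mem_bot] at h5
    exact Subtype.ext h5
  rw [hXs] at h1 h3
  -- the index
  have hidx : 144 ≤ A.index := by
    have h5 := card_SL_ge (F := F) (n := 3)
    rw [hF, Fin.prod_univ_three, ← card_Q m, hz, one_mul] at h5
    have h6 := A.card_mul_index
    rw [h1] at h6
    have h7 : (3 ^ 3 - 3 ^ ((0 : Fin 3) : ℕ)) * (3 ^ 3 - 3 ^ ((1 : Fin 3) : ℕ)) * (3 ^ 3 - 3 ^ ((2 : Fin 3) : ℕ)) = 11232 := rfl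
    rw [h7] at h5
    omega
  have := Fintype.ofFinite Q
  -- the lines
  have key : ∀ M ∈ EPT.M0set A, EPT.nline A M ≤ 10 + 1 := by
    rintro _ ⟨x, hx, rfl⟩
    obtain ⟨h5, h6⟩ := h2 x hx
    obtain ⟨⟨y, hy⟩, hy1⟩ : ∃ y : (A ⊓ cj x A : Subgroup Q), y ≠ 1 := by
      have : Nontrivial (A ⊓ cj x A : Subgroup Q) := by
        rw [← Finite.one_lt_card_iff_nontrivial, h6]
        norm_num
      exact exists_ne 1
    have hy3 : y ^ 3 = 1 := by
      have h7 : (⟨y, hy⟩ : (A ⊓ cj x A : Subgroup Q)) ^ Nat.card (A ⊓ cj x A : Subgroup Q) = 1 := pow_card_eq_one'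
      rw [h6] at h7
      exact congrArg Subtype.val h7
    have hy1' : y ≠ 1 := fun e => hy1 (Subtype.ext e)
    have hyA : y ∈ A := (mem_inf.1 hy).1
    have hyX : ∀ z ∈ XX m hK, z ^ 3 = 1 → z = 1 := by
      intro z hz hz3
      have h7 : (⟨z, hz⟩ : XX m hK) ^ Nat.card (XX m hK) = 1 := pow_card_eq_one'
      rw [hXs] at h7
      have h8 : z ^ 13 = 1 := congrArg Subtype.val h7
      calc z = z ^ 13 * ((z ^ 3) ^ 4)⁻¹ := by group
        _ = 1 := by rw [h8, hz3]; group
    obtain ⟨u, rfl⟩ := m.surj y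
    have huA := (m.mem_hat_iff u).2 hyA
    rw [hA] at huA
    have huK : (u : GL (Fin 3) F) ∉ KU hK := fun e => hy1' (hyX _ ((mem_XX m hK).2 ⟨u, e, rfl⟩) hy3)
    have hu3 : (u : GL (Fin 3) F) ^ 3 = 1 := by
      rw [← map_pow] at hy3
      exact congrArg Subtype.val (hinj _ hy3)
    have hcent := cent_le hF hK (mem_inf.1 huA).1 huK hu3
    -- the centraliser in `Q`
    have hcQ : Nat.card (Subgroup.centralizer {m.π u}) ≤ 13 := by
      refine le_trans ?_ hcent
      let j : (Subgroup.centralizer {(u : GL (Fin 3) F)} ⊓ specialLinear (Fin 3) F : Subgroup (GL (Fin 3) F)) →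
          Subgroup.centralizer {m.π u} := fun g => ⟨m.π ⟨g, (mem_inf.1 g.2).2⟩, by
        rw [mem_centralizer_singleton_iff, ← map_mul, ← map_mul]
        congr 1
        exact Subtype.ext (mem_centralizer_singleton_iff.1 (mem_inf.1 g.2).1)⟩
      refine Nat.card_le_card_of_surjective j ?_
      rintro ⟨c, hc⟩
      obtain ⟨t, rfl⟩ := m.surj c
      refine ⟨⟨t, mem_inf.2 ⟨?_, t.2⟩⟩, rfl⟩
      rw [mem_centralizer_singleton_iff] at hc ⊢
      rw [← map_mul, ← map_mul] at hc
      have h7 := hinj ((u * t)⁻¹ * (t * u)) (by rw [map_mul, map_inv, hc, inv_mul_cancel])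
      rw [inv_mul_eq_one] at h7
      exact (congrArg Subtype.val h7).symm
    -- counting
    set G1 : Finset Q := Finset.univ.filter fun g : Q => g⁻¹ * m.π u * g ∈ A with hG1
    set G2 : Finset Q := Finset.univ.filter fun z : Q => z ∈ A ∧ z ∉ XX m hK with hG2
    have hG2c : G2.card = 26 := by
      have h7 : (Finset.univ.filter fun z : Q => z ∈ A).card = 39 := by
        rw [← Fintype.card_subtype, ← Nat.card_eq_fintype_card]
        exact h1
      have h8 : (Finset.univ.filter fun z : Q => z ∈ XX m hK).card = 13 := by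
        rw [← Fintype.card_subtype, ← Nat.card_eq_fintype_card]
        exact hXs
      have h9 : G2 = (Finset.univ.filter fun z : Q => z ∈ A) \ (Finset.univ.filter fun z : Q => z ∈ XX m hK) := by
        ext z
        simp [hG2]
      rw [h9, Finset.card_sdiff_of_subset, h7, h8]
      intro z hz
      rw [Finset.mem_filter] at hz ⊢
      exact ⟨hz.1, XX_le m hK hA hz.2⟩
    have hG1c : G1.card ≤ 13 * G2.card := by
      refine Finset.card_le_mul_card_image_of_maps_to (f := fun g : Q => g⁻¹ * m.π u * g) ?_ 13 ?_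
      · intro g hg
        rw [hG1, Finset.mem_filter] at hg
        rw [hG2, Finset.mem_filter]
        refine ⟨Finset.mem_univ _, hg.2, fun hgX => ?_⟩
        have h7 := hyX _ hgX (by
          have : (g⁻¹ * m.π u * g) ^ 3 = g⁻¹ * (m.π u) ^ 3 * g := by
            simp only [pow_succ, pow_zero, one_mul]; group
          rw [this, hy3]; group)
        apply hy1'
        calc m.π u = g * (g⁻¹ * m.π u * g) * g⁻¹ := by group
          _ = 1 := by rw [h7]; group
      · intro z _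
        rcases Finset.eq_empty_or_nonempty (G1.filter fun g => g⁻¹ * m.π u * g = z) with h7 | ⟨g0, hg0⟩
        · rw [h7]; exact Nat.zero_le _
        · rw [Finset.mem_filter] at hg0
          refine le_trans ?_ hcQ
          rw [Nat.card_eq_fintype_card, Fintype.card_subtype]
          refine Finset.card_le_card_of_injOn (fun g => g * g0⁻¹) ?_ ?_
          · intro g hg
            have h8 := (Finset.mem_filter.1 hg).2
            have h9 : g⁻¹ * m.π u * g = g0⁻¹ * m.π u * g0 := h8.trans hg0.2.symm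
            refine Finset.mem_coe.2 (Finset.mem_filter.2 ⟨Finset.mem_univ _, ?_⟩)
            rw [mem_centralizer_singleton_iff]
            calc g * g0⁻¹ * m.π u = g * (g0⁻¹ * m.π u * g0) * g0⁻¹ := by group
              _ = g * (g⁻¹ * m.π u * g) * g0⁻¹ := by rw [h9]
              _ = m.π u * (g * g0⁻¹) := by group
          · intro a _ b _ hab
            exact mul_right_cancel hab
    have hG0 : 39 * (G1.image (fun g : Q => (g : Q ⧸ A))).card ≤ G1.card := by
      apply Finset.mul_card_image_le_card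
      intro c hc
      rw [Finset.mem_image] at hc
      obtain ⟨g0, hg0, rfl⟩ := hc
      have h7 : (Finset.univ.filter fun z : Q => z ∈ A).card = 39 := by
        rw [← Fintype.card_subtype, ← Nat.card_eq_fintype_card]
        exact h1
      rw [← h7]
      refine Finset.card_le_card_of_injOn (fun a => g0 * a) ?_ ?_
      · intro a ha
        have ha' : a ∈ A := (Finset.mem_filter.1 ha).2
        refine Finset.mem_coe.2 (Finset.mem_filter.2 ⟨?_, ?_⟩)
        · rw [hG1, Finset.mem_filter] at hg0 ⊢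
          refine ⟨Finset.mem_univ _, ?_⟩
          have e : (g0 * a)⁻¹ * m.π u * (g0 * a) = a⁻¹ * (g0⁻¹ * m.π u * g0) * a := by group
          rw [e]
          exact A.mul_mem (A.mul_mem (A.inv_mem ha') hg0.2) ha'
        · rw [eq_comm, QuotientGroup.eq, inv_mul_cancel_left]
          exact ha'
      · intro a _ b _ hab
        exact mul_left_cancel hab
    have hline : EPT.nline A (A ⊓ cj x A) ≤ (G1.image (fun g : Q => (g : Q ⧸ A))).card := by
      rw [← Set.ncard_coe_finset]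
      refine Set.ncard_le_ncard ?_ (Set.toFinite _)
      intro c hc
      induction c using QuotientGroup.induction_on with
      | H z =>
        rw [Finset.mem_coe, Finset.mem_image]
        refine ⟨z, ?_, rfl⟩
        rw [hG1, Finset.mem_filter]
        refine ⟨Finset.mem_univ _, ?_⟩
        rcases hc with hc | hc
        · have hzA : z ∈ A := by
            have := QuotientGroup.eq.1 hc.symm
            rwa [inv_one, one_mul] at this
          exact A.mul_mem (A.mul_mem (A.inv_mem hzA) hyA) hzA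
        · rw [← hc, EP.stab_coe] at hy
          exact mem_cj.1 (mem_inf.1 hy).2
    rw [hG2c] at hG1c
    omega
  have h5 := EPT.index_le_of_lines A key
  have h6 : (EPT.M0set A).ncard * 10 ≤ 13 * 10 := Nat.mul_le_mul_right _ h3
  omega

/-- **S3499-III-SL-C3** (task 6042): the stabilisers of extension fields in `SL_n(q)`, `n ≥ 3`, `(n, q) ≠ (3, 2)`, are
not point stabilisers of extremely primitive groups. -/
theorem sl_c3 {Q : Type*} [Group Q] [Finite Q] (hs : IsSimpleGroup Q) {A : Subgroup Q} {Γ : Subgroup (MulAut Q)}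
    (h : EPT A Γ) {F : Type*} [Field F] [Fintype F] {n : ℕ} (m : Model Q (specialLinear (Fin n) F)) (hn : 3 ≤ n)
    (h32 : ¬ (n = 3 ∧ Fintype.card F = 2)) {r : ℕ} (hr : r.Prime)
    {K : Subalgebra F (Matrix (Fin n) (Fin n) F)} (hK : IsFieldSubalgebra r K)
    (hA : m.hat A ≤ subalgebraNormalizer K) : False := by
  have hne : Nonempty (Fin n) := ⟨⟨0, by omega⟩⟩
  have hq : 2 ≤ Fintype.card F := Fintype.one_lt_card
  have h1 := H912.finrank_dvd_of_fieldSub hK
  rw [Fintype.card_fin] at h1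
  rcases (Nat.le_of_dvd (by omega) h1).lt_or_eq with h2 | h2
  · exact c3_lt hs h m hr.two_le h2 hK hA
  · subst h2
    have hA' := hat_eq m hK h hs hr.two_le hA
    obtain ⟨h3, h4⟩ := c3_full_aux m hK h hr hn hA'
    subst h3
    have h5 : Fintype.card F = 3 := by
      have : Fintype.card F ≠ 2 := fun e => h32 ⟨rfl, e⟩
      omega
    exact three_three h h5 m hK hA'

end Cfsg.Agent.H855.EP3
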